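import Cfsg.Agent.H29.PslOut
import Cfsg.Agent.H9.SLBasic
import Cfsg.Agent.S0243
import Cfsg.Agent.S0249
import Cfsg.Agent.S0265
import Cfsg.Agent.S0813
import Cfsg.Agent.S0819

set_option autoImplicit false

namespace Cfsg.Agent.ST

open Subgroup in
/-- A normal subgroup `Y` of `Aut(P)` over `Inn(P)` with `Y' = Inn(P)` has the same automorphism
group as the centreless group `P`. -/
theorem aut_equiv_of_commutator {P : Type*} [Group P] (hZ : Subgroup.center P = ⊥)
    (Y : Subgroup (MulAut P)) [Y.Normal] (hI : Inn P ≤ Y)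
    (hc : (Inn P).subgroupOf Y = commutator Y) : Nonempty (MulAut P ≃* MulAut Y) := by
  have hinj : Function.Injective (MulAut.conj : P →* MulAut P) :=
    (MonoidHom.ker_eq_bot_iff _).1 (by
      rw [eq_bot_iff, ← hZ]
      intro x hx
      rw [Subgroup.mem_center_iff]
      intro g
      have := MulEquiv.congr_fun (MonoidHom.mem_ker.1 hx) g
      exact (mul_inv_eq_iff_eq_mul.1 this).symm)
  have hcj : ∀ (α : MulAut P) (x : P), α * MulAut.conj x * α⁻¹ = MulAut.conj (α x) := by
    intro α x
    ext g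
    simp
  let c : P →* Y := (MulAut.conj : P →* MulAut P).codRestrict Y fun x => hI ⟨x, rfl⟩
  have hci : Function.Injective c := fun a b h => hinj (congrArg Subtype.val h)
  have hr : c.range = commutator Y := by
    rw [← hc]
    ext y
    constructor
    · rintro ⟨x, rfl⟩
      exact ⟨x, rfl⟩
    · rintro ⟨x, hx⟩
      exact ⟨x, Subtype.ext hx⟩
  refine ⟨MulEquiv.ofBijective (MulAut.conjNormal : MulAut P →* MulAut Y) ⟨?_, fun σ => ?_⟩⟩
  · refine (injective_iff_map_eq_one _).2 fun α hα => ?_
    ext x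
    have := congrArg Subtype.val (MulEquiv.congr_fun hα (c x))
    exact hinj ((hcj α x).symm.trans this)
  · have hm : c.range.map (σ : Y →* Y) = c.range := by
      rw [hr]
      exact characteristic_iff_map_eq.1 inferInstance σ
    let e1 := MonoidHom.ofInjective hci
    let β : MulAut P :=
      e1.trans (((σ.subgroupMap c.range).trans (MulEquiv.subgroupCongr hm)).trans e1.symm)
    have hβ : ∀ x, c (β x) = σ (c x) := fun x => MonoidHom.apply_ofInjective_symm hci _
    refine ⟨β, ?_⟩
    ext y x
    obtain ⟨x, rfl⟩ := β.surjective x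
    have h1 : y * c x * y⁻¹ = c ((y : MulAut P) x) := Subtype.ext (hcj y x)
    have h2 := congrArg (fun z => ((σ z : Y) : MulAut P)) h1
    simp only [map_mul, map_inv, ← hβ, Subgroup.coe_mul, Subgroup.coe_inv] at h2
    have h3 := hinj ((hcj (σ y) (β x)).symm.trans h2)
    rw [h3]
    simp

theorem card_psl34 {F : Type*} [Field F] [Fintype F] (hF : Fintype.card F = 4) :
    Nat.card (Matrix.ProjectiveSpecialLinearGroup (Fin 3) F) = 20160 := by
  have hc := S0243.result hF 3 (by norm_num)
  simp [Fin.prod_univ_three] at hc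
  omega

/-- `Aut(PSL₃(4)) ≅ Aut(PGL₃(4))`. -/
theorem aut_psl_pgl {F : Type*} [Field F] [Fintype F] (hF : Fintype.card F = 4) :
    Nonempty (MulAut (Matrix.ProjectiveSpecialLinearGroup (Fin 3) F) ≃*
      MulAut (GL (Fin 3) F ⧸ Subgroup.center (GL (Fin 3) F))) := by
  have hs := S0249.result (F := F) 3 le_rfl
  have hna : ¬ IsMulCommutative (Matrix.ProjectiveSpecialLinearGroup (Fin 3) F) := fun h => by
    let _ : CommGroup (Matrix.ProjectiveSpecialLinearGroup (Fin 3) F) :=
      { (inferInstance : Group _) with mul_comm := h.is_comm.comm }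
    have := IsSimpleGroup.prime_card (α := Matrix.ProjectiveSpecialLinearGroup (Fin 3) F)
    rw [card_psl34 hF] at this
    norm_num at this
  have hZ : Subgroup.center (Matrix.ProjectiveSpecialLinearGroup (Fin 3) F) = ⊥ :=
    (hs.eq_bot_or_eq_top_of_normal _ inferInstance).resolve_right fun h =>
      hna ⟨⟨fun a b => (Subgroup.mem_center_iff.1 (h ▸ Subgroup.mem_top b) a)⟩⟩
  have hP : commutator (Matrix.ProjectiveSpecialLinearGroup (Fin 3) F) = ⊤ :=
    (hs.eq_bot_or_eq_top_of_normal _ inferInstance).resolve_left fun h =>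
      hna ⟨⟨fun a b => commutatorElement_eq_one_iff_mul_comm.1 (Subgroup.mem_bot.1
        (h ▸ Subgroup.commutator_mem_commutator (Subgroup.mem_top a) (Subgroup.mem_top b)))⟩⟩
  have := H29.pslConj_range_normal (F := F) (n := 3) (by norm_num)
  have hI := H29.inn_le_pslConj_range (F := F) (n := 3)
  obtain ⟨e⟩ := aut_equiv_of_commutator hZ _ hI (by
    apply Subgroup.map_injective (Subgroup.subtype_injective _)
    rw [Subgroup.map_subgroupOf_eq_of_le hI, commutator, Subgroup.map_commutator,
      ← MonoidHom.range_eq_map, Subgroup.range_subtype]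
    apply le_antisymm
    · conv_lhs => rw [Inn, MonoidHom.range_eq_map, ← hP, commutator, Subgroup.map_commutator,
        ← MonoidHom.range_eq_map]
      exact Subgroup.commutator_mono hI hI
    · rw [Subgroup.commutator_le]
      intro a ha b hb
      have h1 := (H29.psl_outdiag (F := F) (n := 3) (by norm_num)).1.isMulCommutative.is_comm.comm
        ⟨_, Subgroup.mem_map_of_mem _ ha⟩ ⟨_, Subgroup.mem_map_of_mem _ hb⟩
      rw [← QuotientGroup.eq_one_iff, ← QuotientGroup.mk'_apply, map_commutatorElement,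
        commutatorElement_eq_one_iff_mul_comm]
      exact congrArg Subtype.val h1)
  let i := (QuotientGroup.quotientMulEquivOfEq (H29.pslConj_ker (ι := Fin 3) (F := F)
    (by simp)).symm).trans (QuotientGroup.quotientKerEquivRange (H29.pslConj (Fin 3) F))
  exact ⟨e.trans (MulAut.congr i).symm⟩

theorem card_aut_psl34 {F : Type*} [Field F] [Fintype F] (hF : Fintype.card F = 4) :
    Nat.card (MulAut (Matrix.ProjectiveSpecialLinearGroup (Fin 3) F)) = 241920 := by
  have h1 := H9.card_sl_fin (F := F) 3 (by norm_num)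
  rw [hF, Fin.prod_univ_three] at h1
  norm_num at h1
  rw [S0813.result 2 2 (by norm_num) hF 3 (by norm_num) (by norm_num), S0265.result]
  norm_num
  omega

theorem psl34_pow (g : Matrix.ProjectiveSpecialLinearGroup (Fin 3) H29.F4) :
    ∃ k ∈ [3, 4, 5, 7], g ^ k = 1 := by
  obtain ⟨A, rfl⟩ := QuotientGroup.mk_surjective g
  obtain ⟨k, hk, h1, h2⟩ := S0819.key (A : Matrix (Fin 3) (Fin 3) H29.F4).trace
    (A : Matrix (Fin 3) (Fin 3) H29.F4).adjugate.trace
  have h := S0819.pow_eq_co (A : Matrix (Fin 3) (Fin 3) H29.F4) A.2 k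
  rw [h1, h2, zero_smul, zero_smul, zero_add, zero_add] at h
  refine ⟨k, hk, ?_⟩
  rw [← QuotientGroup.mk_pow, QuotientGroup.eq_one_iff, Subgroup.mem_center_iff]
  intro B
  apply Subtype.ext
  rw [Matrix.SpecialLinearGroup.coe_mul, Matrix.SpecialLinearGroup.coe_mul,
    Matrix.SpecialLinearGroup.coe_pow, h]
  simp

/-- `PSL₃(4)` has no element of order 6. -/
theorem psl34_no_six {F : Type*} [Field F] [Fintype F] (hF : Fintype.card F = 4)
    {t r : Matrix.ProjectiveSpecialLinearGroup (Fin 3) F} (ht : t * t = 1) (hr : r * r * r = 1)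
    (h : t * r = r * t) : t = 1 ∨ r = 1 := by
  by_contra hc
  push Not at hc
  have : Fact (Nat.Prime 3) := ⟨Nat.prime_three⟩
  have o2 : orderOf t = 2 := orderOf_eq_prime (by rw [sq, ht]) hc.1
  have o3 : orderOf r = 3 := orderOf_eq_prime (by rw [pow_three, ← mul_assoc, hr]) hc.2
  have o6 := Commute.orderOf_mul_eq_mul_orderOf_of_coprime (show Commute t r from h)
    (by rw [o2, o3]; norm_num)
  obtain ⟨k, hk, h1⟩ := psl34_pow (H29.pslEquiv (Fin 3) (H29.equivF4 hF) (t * r))
  have h2 := orderOf_dvd_of_pow_eq_one h1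
  rw [MulEquiv.orderOf_eq, o6, o2, o3] at h2
  simp only [List.mem_cons, List.not_mem_nil, or_false] at hk
  rcases hk with rfl | rfl | rfl | rfl <;> omega

end Cfsg.Agent.ST
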