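import Cfsg.Agent.ST.Defs

/-! Facts about the model of order 768, by evaluation. -/

set_option autoImplicit false

namespace Cfsg.Agent.ST

theorem sq_z : ∀ a b : Bool, ∀ y : M a b, y * y = 1 → ∃ x : M a b, x * x = mz ∧ x * y = y * x := by
  decide +kernel

theorem sq_U : ∀ a b : Bool, ∀ x : M a b, x * x * (x * x) = 1 → InU (x * x) := by
  decide +kernel

theorem f_conj : ∀ a b : Bool, ∀ f : M a b, InU f → f * f = 1 → InW f ∨ ∃ h : M a b, h * mf = f * h := by
  decide +kernel

theorem U_facts : ∀ a b : Bool, ∀ x : M a b, InU x → x * mu = mu * x ∧ InW (x * x) := by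
  decide +kernel

theorem f_three : ∀ a b : Bool, ∀ x : M a b, x * x * x = 1 → x = 1 ∨
    ∀ f : M a b, InU f → f * f = 1 → x * f = f * x → InW f := by
  decide +kernel

theorem r_facts : ∀ a b : Bool, (mr : M a b) * mr * mr = 1 ∧ (mr : M a b) ≠ 1 ∧
    (mr : M a b) * mu = mu * mr := by
  decide +kernel

theorem U_char : ∀ a b : Bool, ∀ x : M a b, x * mu = mu * x → x * x * (x * x) = 1 →
    ∀ y, y = x * (mr * x * (mr * mr)) → y * y * (y * y) = 1 → InU x := by
  simp only [forall_eq]
  decide +kernel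

theorem sq_u : ∀ a : Bool, ∀ x : M a true, InU x → x * x = mu → ∀ y : M a true, InU y → y * y = mu →
    x * y * (x * y) = 1 ∨ x * y * (x * y) = mu := by
  decide +kernel

theorem sq_z' : ∀ a : Bool, ∃ x : M a true, InU x ∧ x * x = mz ∧ ∃ y : M a true, InU y ∧ y * y = mz ∧
    x * y * (x * y) ≠ 1 ∧ x * y * (x * y) ≠ mz := by
  decide +kernel

theorem four_cent : ∀ a b : Bool, ∀ x : M a b, InU x → x * x ≠ 1 → ∀ y : M a b, InU y → y * y = 1 →
    x * y = y * x → InW y := by
  decide +kernel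

theorem cent_U : ∀ a b : Bool, ∀ x : M a b, (∀ y, InU y → x * y = y * x) → InW x := by
  decide +kernel

theorem norm_W : ∀ a b : Bool, ∀ x : M a b, x * mu = mu * x ∨ x * mu = mz * mu * x := by
  decide +kernel

theorem co_mul : ∀ a : Bool, ∀ s : M a false, InU s → ∀ t : M a false, InU t →
    cb (s * t) = cb s + cb t ∧ cy (s * t) = cy s + cy t ∧ cx (s * t) = cx s + cx t + cb s * cy t ∧
      (cx s = cx t → cy s = cy t → cb s = cb t → s = t) := by
  decide +kernel

theorem co_surj : ∀ a : Bool, ∀ x y c, ∃ s : M a false, InU s ∧ cx s = x ∧ cy s = y ∧ cb s = c := by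
  decide +kernel

theorem co_swap : ∀ a : Bool, ∀ s : M a false, InU s → InU (mv * s * mv) ∧
    (cb s = 0 ↔ cy (mv * s * mv) = 0) ∧ (cb s = 0 → cy s = 0 → InW s) := by
  decide +kernel

theorem pa_mul : ∀ e p f c, pa (qm (qm e (act p f)) (zc c)) = (pa e ^^ pa f) := by
  decide +kernel

theorem sg_mul : ∀ p q, sg (pm p q) = (sg p ^^ sg q) ∧ (v4 p = true → v4 q = true → v4 (pm p q) = true) := by
  decide +kernel

theorem v4_conj : ∀ p q q', pm p q = pm q' p → v4 q = true → v4 q' = true := by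
  decide +kernel

theorem v4_sq : ∀ p, sg p = false → v4 (pm p p) = true → v4 p = true := by
  decide +kernel

end Cfsg.Agent.ST
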