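import Cfsg.Agent.ST.Defs
import Cfsg.Agent.SGJ2.Frame
import Cfsg.Agent.S3763
import Cfsg.Agent.H11.Forms
import Cfsg.Agent.H15.LXMore
import Cfsg.Prelude.Def_Transfer

/-! Generators of the extraspecial group of minus type and the action of `S₄` on them. -/

set_option autoImplicit false

namespace Cfsg.Agent.ST

open Subgroup H88.JJ.Frame

variable {G : Type*} [Group G] {Q : Subgroup G} {z : G}

/-- the five singular vectors -/
def wv (i : Fin 5) : (Fin 1 ⊕ Fin 1) ⊕ Fin 2 → ZMod 2 :=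
  Sum.elim (Sum.elim (fun _ => ![0, 1, 1, 1, 1] i) fun _ => ![1, 0, 1, 1, 1] i)
    ![![0, 0, 0, 1, 1] i, ![0, 0, 1, 0, 1] i]

set_option synthInstance.maxSize 1000 in
theorem wv_facts : (∀ i, H11.qMinus 1 (1 : ZMod 2) 1 (wv i) = 0) ∧
    (∀ i j, i ≠ j → H11.qMinus 1 (1 : ZMod 2) 1 (wv i + wv j) = 1) ∧
    ∀ v, (∀ i, H11.qMinus 1 (1 : ZMod 2) 1 (v + wv i) = H11.qMinus 1 (1 : ZMod 2) 1 v) → v = 0 := by
  simp only [H11.qMinus_apply]
  decide +kernel

theorem exists_cl_minus [Finite G] (h : H97.LX Q z) (hE : IsExtraspecial 2 Q) (hQ : Nat.card Q = 32)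
    (hm : ∀ A : Subgroup Q, IsElementaryAbelian 2 A → Nat.card A ≠ 8) : ∃ γ, Cl Q z γ := by
  have : Fact (Nat.Prime 2) := ⟨Nat.prime_two⟩
  obtain ⟨V, _, _, _, _, D, hD, -⟩ := H3.exists_esData_of_isExtraspecial hE
  have hζ : (D.ζ 1 : G) = z := (h.large _ fun a ha =>
    congrArg Subtype.val (D.ζ_comm 1 ⟨a, ha⟩)).resolve_left fun e =>
      one_ne_zero (D.ζ_eq_one_iff.1 (Subtype.ext e))
  rcases S3763.main D hD 2 hQ with ⟨h3, -⟩ | ⟨-, φ, hφ⟩
  · refine (h3.2 fun A a b => ?_).elim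
    by_contra n
    obtain ⟨k, hk⟩ := IsPGroup.iff_card.1 (D.isPGroup.to_subgroup A)
    obtain ⟨B, hB⟩ := Sylow.exists_subgroup_card_pow_prime (G := A) 2 (n := 3) (by
      rw [hk] at n ⊢
      exact pow_dvd_pow 2 ((Nat.pow_lt_pow_iff_right (by norm_num)).1 (not_le.1 n)))
    refine hm (B.map A.subtype) ⟨inferInstance, ?_⟩ (by rw [card_subtype, hB]; rfl)
    rintro _ ⟨x, -, rfl⟩
    exact b _ x.2
  have hq : ∀ v, D.f v = H11.qMinus 1 (1 : ZMod 2) 1 (φ v) := fun v =>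
    (D.quad_apply v).symm.trans ((hφ v).trans (H11.qMinus_eq _ _ _ _))
  have hB : ∀ u v, D.B u v = H11.qMinus 1 (1 : ZMod 2) 1 (φ u + φ v) -
      H11.qMinus 1 (1 : ZMod 2) 1 (φ u) - H11.qMinus 1 (1 : ZMod 2) 1 (φ v) := fun u v => by
    rw [← D.polar_quad, QuadraticMap.polar, D.quad_apply, D.quad_apply, D.quad_apply, hq, hq, hq,
      map_add]
  choose γ hγ using fun i => D.π_surj (φ.symm (wv i))
  replace hγ : ∀ i, φ (D.π (γ i)) = wv i := fun i => by rw [hγ, φ.apply_symm_apply]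
  obtain ⟨w1, w2, w3⟩ := wv_facts
  refine ⟨fun i => γ i, fun i => (γ i).2, fun i => ?_, fun i j n => ?_, fun g h1 h2 => ?_⟩
  · have := D.pow_eq_one_iff (γ i)
    rw [hq, hγ, w1, pow_two] at this
    exact congrArg Subtype.val (this.2 rfl)
  · have := congrArg Subtype.val (D.comm_eq (γ i) (γ j))
    rw [hB, hγ, hγ, w2 i j n, w1, w1, sub_zero, sub_zero, hζ, commutatorElement_def] at this
    rw [← this]
    push_cast
    group
  · refine h.large g fun a ha => ?_
    by_contra n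
    obtain ⟨b, hb, h3, h4⟩ := h.sep (Q ⊓ centralizer {g}) inf_le_left
      ⟨h.mem, mem_centralizer_singleton_iff.2 h1.symm⟩ a ha
      fun e => n (mem_centralizer_singleton_iff.1 e.2).symm
    have h5 := w3 (φ (D.π ⟨b, hb⟩)) fun i => by
      have := (D.commute_iff ⟨b, hb⟩ (γ i)).1 (Subtype.ext
        (h3 _ ⟨(γ i).2, mem_centralizer_singleton_iff.2 (h2 i).symm⟩))
      rwa [hB, hγ, w1, sub_zero, sub_eq_zero] at this
    obtain ⟨s, hs⟩ := (D.π_eq_zero_iff _).1 (φ.map_eq_zero_iff.1 h5)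
    have h6 : b * a = a * b := congrArg Subtype.val (hs ▸ D.ζ_comm s ⟨a, ha⟩)
    rw [h6, mul_inv_cancel_right, right_eq_mul] at h4
    exact h.ne h4

theorem cl_norm {γ : Fin 5 → G} (h : H97.LX Q z) (c : Cl Q z γ) (τ : Equiv.Perm (Fin 5)) :
    ∃ δ, Cl Q z δ ∧ pr δ id = 1 ∧ ∀ i, δ i = γ (τ i) ∨ δ i = z * γ (τ i) := by
  have c' : Cl Q z fun i => γ (τ i) := ⟨fun _ => c.mem _, fun _ => c.sq _,
    fun i j n => c.anti _ _ (τ.injective.ne n), fun g h1 h2 => c.gen g h1 fun i => by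
      simpa using h2 (τ.symm i)⟩
  generalize hδ : (fun i => γ (τ i)) = δ at c'
  have hδ' : ∀ i, γ (τ i) = δ i := congrFun hδ
  have k1 : ∀ i x, δ i * (z * x) = z * (δ i * x) := fun i => H88.JJ.Frame.zc (h.cen _ (c'.mem i)) true
  have k2 : ∀ i j x, j < i → δ i * (δ j * x) = z * (δ j * (δ i * x)) := fun i j x e => by
    rw [← mul_assoc, c'.anti i j e.ne']; simp only [mul_assoc]
  have k3 : ∀ i x, δ i * (δ i * x) = x := fun i x => by rw [← mul_assoc, c'.sq, one_mul]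
  have zz : ∀ x, z * (z * x) = x := fun x => by rw [← mul_assoc, h.sq, one_mul]
  have k : ∀ i y, pr δ id * (δ i * y) = δ i * (pr δ id * y) := fun i y => by
    fin_cases i <;> simp +decide only [pr, id, mul_assoc, Fin.reduceFinMk, k1, k2, k3, zz]
  rcases c'.gen (pr δ id) (h.cen _ (mul_mem (mul_mem (mul_mem (mul_mem (c'.mem _) (c'.mem _))
    (c'.mem _)) (c'.mem _)) (c'.mem _))) (fun i => by simpa using k i 1) with e | e
  · exact ⟨δ, c', e, fun i => Or.inl (hδ' i).symm⟩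
  · exact ⟨_, (c'.neg h).1, by rw [(c'.neg h).2, e, h.sq], fun i => Or.inr (by rw [hδ'])⟩

theorem exists_psi {γ : Fin 5 → G} (h : H97.LX Q z) (c : Cl Q z γ) (h0 : pr γ id = 1) :
    ∃ ψ : centralizer ({z} : Set G) →* Equiv.Perm (Fin 5), ψ.ker = Q.subgroupOf _ ∧
      ∀ (g : centralizer ({z} : Set G)) i,
        g * γ i * (g : G)⁻¹ = γ (ψ g i) ∨ g * γ i * (g : G)⁻¹ = z * γ (ψ g i) := by
  have hc : ∀ g : centralizer ({z} : Set G), (g : G) * z = z * g := fun g =>
    mem_centralizer_singleton_iff.1 g.2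
  choose f hf using fun g : centralizer ({z} : Set G) => c.exists_index h (hc g) h0
  have h2 : ∀ x, z * (z * x) = x := fun x => by rw [← mul_assoc, h.sq, one_mul]
  let φ : centralizer ({z} : Set G) →* Function.End (Fin 5) :=
    { toFun := f
      map_one' := funext fun i => c.uniq h (hf 1 i) (Or.inl (by simp; rfl))
      map_mul' := fun a b => funext fun i => c.uniq h (hf (a * b) i) (by
        have e : ((a * b : centralizer ({z} : Set G)) : G) * γ i *
            ((a * b : centralizer ({z} : Set G)) : G)⁻¹ =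
            a * (b * γ i * (b : G)⁻¹) * (a : G)⁻¹ := by push_cast; group
        have e2 := fun x => H88.JJ.Frame.zc (hc a) true x
        simp only [cond_true] at e2
        change _ = γ (f a (f b i)) ∨ _ = z * γ (f a (f b i))
        rcases hf b i with e1 | e1 <;> rw [e, e1]
        · exact hf a _
        · rw [e2, mul_assoc z]
          rcases hf a (f b i) with e3 | e3 <;> rw [e3]
          · exact Or.inr rfl
          · exact Or.inl (h2 _)) }
  refine ⟨φ.toHomPerm, ?_, hf⟩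
  ext g
  rw [MonoidHom.mem_ker, mem_subgroupOf]
  refine ⟨fun e => (c.fix h (hc g) h0 fun i => ?_).1, fun e => Equiv.ext fun i =>
    c.uniq h (hf g i) (h.comm _ e _ (c.mem i))⟩
  have := hf g i
  rwa [show f g i = i from Equiv.congr_fun e i] at this

theorem perm5_fix : ∀ c : Equiv.Perm (Fin 5), c * c * (c * c) = 1 → c * c ≠ 1 →
    ∃ i, ∀ j, (c * c) j = j ↔ j = i := by decide +kernel

theorem perm4_comm : ∃ c : Equiv.Perm (Fin 4), c * c * (c * c) = 1 ∧ c * c ≠ 1 ∧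
    ∀ g, g * (c * c) * g⁻¹ * (c * c) = c * c * (g * (c * c) * g⁻¹) := by decide +kernel

theorem perm54 : (∀ s : Equiv.Perm (Fin 5), s 4 = 4 → ∃ t : Equiv.Perm (Fin 4), ∀ i,
      s i.castSucc = (t i).castSucc) ∧
    (∀ t : Equiv.Perm (Fin 4), ∃ s : Equiv.Perm (Fin 5), s 4 = 4 ∧ ∀ i,
      s i.castSucc = (t i).castSucc) ∧
    Fintype.card {s : Equiv.Perm (Fin 5) // s 4 = 4} = 24 := by decide +kernel

theorem exists_fixed {H : Type*} [Group H] (ψ : H →* Equiv.Perm (Fin 5))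
    (π : H →* Equiv.Perm (Fin 4)) (hπ : Function.Surjective π) (hk : ψ.ker = π.ker) :
    ∃ i, ∀ g, ψ g i = i := by
  have k : ∀ x y, ψ x = ψ y ↔ π x = π y := fun x y => by
    rw [← inv_mul_eq_one, ← map_inv, ← map_mul, ← MonoidHom.mem_ker, hk, MonoidHom.mem_ker, map_mul,
      map_inv, inv_mul_eq_one]
  obtain ⟨c, c1, c2, c3⟩ := perm4_comm
  obtain ⟨c, rfl⟩ := hπ c
  obtain ⟨i, hi⟩ := perm5_fix (ψ c)
    (by simpa using (k (c * c * (c * c)) 1).2 (by simpa using c1))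
    fun e => c2 (by simpa using (k (c * c) 1).1 (by simpa using e))
  refine ⟨i, fun g => (hi _).1 ?_⟩
  have e := (k (g * (c * c) * g⁻¹ * (c * c)) (c * c * (g * (c * c) * g⁻¹))).2
    (by simpa using c3 (π g))
  simp only [map_mul, map_inv] at e
  generalize ψ c * ψ c = t at hi e
  have e1 := Equiv.congr_fun e (ψ g i)
  simp only [Equiv.Perm.mul_apply, Equiv.Perm.coe_inv, Equiv.symm_apply_apply, (hi i).2 rfl] at e1
  have e2 := (hi ((ψ g).symm (t (ψ g i)))).1 (by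
    conv_rhs => rw [← e1]
    rw [Equiv.symm_apply_apply])
  conv_rhs => rw [← e2]
  rw [Equiv.apply_symm_apply]

theorem exists_fr {G : Type*} [Group G] [Finite G] (z : G) (hz : orderOf z = 2)
    (E : Subgroup ↥(Subgroup.centralizer ({z} : Set G))) [hEn : E.Normal]
    (hE : Cfsg.IsExtraspecial 2 ↥E) (hE32 : Nat.card ↥E = 32)
    (hEminus : ∀ A : Subgroup ↥E, Cfsg.IsElementaryAbelian 2 A → Nat.card ↥A ≠ 8)
    (hCE : Subgroup.centralizer (E : Set ↥(Subgroup.centralizer ({z} : Set G))) ≤ E)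
    (e : (↥(Subgroup.centralizer ({z} : Set G)) ⧸ E) ≃* Equiv.Perm (Fin 4)) :
    ∃ γ : Fin 4 → G, Fr z γ := by
  have : Fact (Nat.Prime 2) := ⟨Nat.prime_two⟩
  let C := centralizer ({z} : Set G)
  let π : C →* Equiv.Perm (Fin 4) := e.toMonoidHom.comp (QuotientGroup.mk' E)
  have hπ : Function.Surjective π := e.surjective.comp (QuotientGroup.mk'_surjective E)
  have ker : π.ker = E := Subgroup.ext fun c =>
    e.map_eq_one_iff.trans (QuotientGroup.eq_one_iff c)
  have hc : Nat.card C = 768 := by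
    rw [card_eq_card_quotient_mul_card_subgroup E, Nat.card_congr e.toEquiv, hE32, Nat.card_perm]
    simp [Nat.factorial]
  have zC : z ∈ C := mem_centralizer_singleton_iff.2 rfl
  have zE : (⟨z, zC⟩ : C) ∈ E := hCE fun a _ => Subtype.ext (mem_centralizer_singleton_iff.1 a.2)
  let i := E.equivMapOfInjective _ C.subtype_injective
  have hQ := H15.isExtraspecial_congr i hE
  have hn : ∀ g ∈ C, ∀ a ∈ E.map C.subtype, g * a * g⁻¹ ∈ E.map C.subtype := by
    rintro g hg _ ⟨a, ha, rfl⟩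
    exact ⟨_, Normal.conj_mem inferInstance a ha ⟨g, hg⟩, rfl⟩
  have h := H97.lx_of_extraspecial hz hQ (fun x hx => ⟨⟨x, mem_centralizer_singleton_iff.2
    (hx z ⟨_, zE, rfl⟩).symm⟩, hCE fun a ha => Subtype.ext (hx a ⟨a, ha, rfl⟩), rfl⟩)
    (map_subtype_le _) fun g hg => mem_normalizer_fintype (hn g hg)
  have hs : (E.map C.subtype).subgroupOf C = π.ker := by
    rw [ker]; exact comap_map_eq_self_of_injective C.subtype_injective E
  obtain ⟨γ0, c0⟩ := exists_cl_minus h hQ (by rw [card_subtype, hE32]) fun A hA => by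
    rw [← card_map_of_injective (f := i.symm.toMonoidHom) i.symm.injective]
    have := hA.1
    refine hEminus _ ⟨inferInstance, ?_⟩
    rintro _ ⟨x, hx, rfl⟩
    rw [← map_pow, hA.2 x hx, map_one]
  obtain ⟨γ1, c1, p1, -⟩ := cl_norm h c0 1
  obtain ⟨ψ1, k1, a1⟩ := exists_psi h c1 p1
  obtain ⟨j, hj⟩ := exists_fixed ψ1 π hπ (k1.trans hs)
  obtain ⟨γ, c, p, q⟩ := cl_norm h c1 (Equiv.swap j 4)
  obtain ⟨ψ, k, a⟩ := exists_psi h c p
  have zz : ∀ x, z * (z * x) = x := fun x => by rw [← mul_assoc, h.sq, one_mul]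
  have fx : ∀ g, ψ g 4 = 4 := fun g => c.uniq h (a g 4) (by
    have e1 := a1 g j
    have e2 := q 4
    rw [hj] at e1
    rw [Equiv.swap_apply_right] at e2
    rcases e2 with e2 | e2 <;> rw [e2]
    · exact e1
    · rw [zz, ← mul_assoc, mem_centralizer_singleton_iff.1 g.2, mul_assoc z, mul_assoc z]
      exact e1.imp (congrArg _) fun e => by rw [e, zz])
  have hr : ψ.range = MulAction.stabilizer (Equiv.Perm (Fin 5)) (4 : Fin 5) := by
    refine eq_of_le_of_card_ge (by rintro _ ⟨g, rfl⟩; exact fx g) (le_of_eq ?_)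
    have h3 := ψ.ker.card_mul_index
    rw [index_ker, k, hs, ker, hE32, hc] at h3
    rw [show Nat.card ψ.range = 24 by omega, ← perm54.2.2, ← Nat.card_eq_fintype_card]
    rfl
  refine ⟨fun i => γ i.castSucc, h.ne, h.sq, fun i => h.cen _ (c.mem _), fun i => c.sq _,
    fun i j n => c.anti _ _ ((Fin.castSucc_injective 4).ne n), fun g h1 h2 => c.gen g h1 fun i => ?_,
    fun g hg => ?_, fun σ => ?_, hc⟩
  · refine Fin.lastCases ?_ h2 i
    rw [show γ (Fin.last 4) = (γ 0 * γ 1 * γ 2 * γ 3)⁻¹ from eq_inv_of_mul_eq_one_right p]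
    exact (((Commute.mul_right (h2 0) (h2 1)).mul_right (h2 2)).mul_right (h2 3)).inv_right
  · obtain ⟨t, ht⟩ := perm54.1 _ (fx ⟨g, mem_centralizer_singleton_iff.2 hg⟩)
    exact ⟨t, fun i => ht i ▸ a ⟨g, mem_centralizer_singleton_iff.2 hg⟩ i.castSucc⟩
  · obtain ⟨s, h1, h2⟩ := perm54.2.1 σ
    obtain ⟨g, rfl⟩ := hr.ge (show s ∈ MulAction.stabilizer _ (4 : Fin 5) from h1)
    exact ⟨g, mem_centralizer_singleton_iff.1 g.2, fun i => h2 i ▸ a g i.castSucc⟩

end Cfsg.Agent.ST
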