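import Cfsg.Agent.ST.Defs

/-! From the generators of `E` to the table model of `C(z)`. -/

set_option autoImplicit false

namespace Cfsg.Agent.ST

variable {G : Type*} [Group G] {z : G} {γ : Fin 4 → G}

def ev (z : G) (γ : Fin 4 → G) (x0 x1 x2 x3 x4 : Bool) : G :=
  cond x0 (γ 0) 1 * (cond x1 (γ 1) 1 * (cond x2 (γ 2) 1 * (cond x3 (γ 3) 1 * cond x4 z 1)))

def ph (z : G) (γ : Fin 4 → G) (e : Fin 32) : G :=
  ev z γ (tb e.1 0) (tb e.1 1) (tb e.1 2) (tb e.1 3) (tb e.1 4)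

def gn (i : Fin 4) : Fin 32 := ![1, 2, 4, 8] i

def bits (e : Fin 32) : List Bool := [tb e.1 0, tb e.1 1, tb e.1 2, tb e.1 3, tb e.1 4]

theorem bits_qm : ∀ e : Fin 32,
    bits (qm 1 e) = [!tb e.1 0, tb e.1 1, tb e.1 2, tb e.1 3, tb e.1 4] ∧
    bits (qm 2 e) = [tb e.1 0, !tb e.1 1, tb e.1 2, tb e.1 3, tb e.1 4 ^^ tb e.1 0] ∧
    bits (qm 4 e) = [tb e.1 0, tb e.1 1, !tb e.1 2, tb e.1 3, tb e.1 4 ^^ tb e.1 0 ^^ tb e.1 1] ∧
    bits (qm 8 e) = [tb e.1 0, tb e.1 1, tb e.1 2, !tb e.1 3,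
      tb e.1 4 ^^ tb e.1 0 ^^ tb e.1 1 ^^ tb e.1 2] ∧
    bits (qm 16 e) = [tb e.1 0, tb e.1 1, tb e.1 2, tb e.1 3, !tb e.1 4] := by
  decide +kernel

theorem ph_of_bits {e : Fin 32} {x0 x1 x2 x3 x4 : Bool} (h : bits e = [x0, x1, x2, x3, x4]) :
    ph z γ e = ev z γ x0 x1 x2 x3 x4 := by
  simp only [bits, List.cons.injEq, and_true] at h
  rw [ph, h.1, h.2.1, h.2.2.1, h.2.2.2.1, h.2.2.2.2]

theorem dec32 : ∀ e : Fin 32, e = 0 ∨ ∃ e' < e, e = qm 16 e' ∨ ∃ i, e = qm (gn i) e' := by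
  decide +kernel

theorem ind32 {P : Fin 32 → Prop} (h0 : P 0) (h1 : ∀ e, P e → P (qm 16 e))
    (h2 : ∀ i e, P e → P (qm (gn i) e)) (e : Fin 32) : P e := by
  induction e using WellFoundedLT.induction with
  | _ e ih =>
    rcases dec32 e with rfl | ⟨e', h, rfl | ⟨i, rfl⟩⟩
    exacts [h0, h1 _ (ih _ h), h2 _ _ (ih _ h)]

theorem qm_facts : ∀ e : Fin 32, qm 0 e = e ∧ qm e 16 = qm 16 e ∧ (∀ i, qm (gn i) 0 = gn i) ∧ ∀ f,
    qm (qm 16 e) f = qm 16 (qm e f) ∧ ∀ i, qm (qm (gn i) e) f = qm (gn i) (qm e f) := by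
  decide +kernel

theorem act_facts : ∀ p, act p 0 = 0 ∧ ∀ e, act 0 e = e ∧ act p (qm 16 e) = qm 16 (act p e) ∧
    (∀ i, act p (qm (gn i) e) = qm (act p (gn i)) (act p e)) ∧
    ∀ q, act (pm p q) e = act p (act q e) := by
  decide +kernel

def rel (σ : Equiv.Perm (Fin 4)) (p : Fin 24) : Prop :=
  ∀ i, gn (σ i) = act p (gn i) ∨ gn (σ i) = qm 16 (act p (gn i))

instance (σ : Equiv.Perm (Fin 4)) (p : Fin 24) : Decidable (rel σ p) :=
  inferInstanceAs (Decidable (∀ _, _))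

theorem rel_left : ∀ σ, ∃ p, rel σ p := by decide +kernel
theorem rel_right : ∀ p, ∃ σ, rel σ p := by decide +kernel

theorem signs : ∀ p, ∀ ε : Fin 4 → Bool, ∃ e, ∀ i,
    qm e (act p (gn i)) = qm (zc (ε i)) (qm (act p (gn i)) e) := by
  decide +kernel

theorem dec24 : ∀ a b q, q = 0 ∨ ∃ q' < q, ∃ i ∈ [1, 2, 6], q = pm q' i ∧ cc a b q' i = false ∧
    ∀ p, pm (pm p q') i = pm p q ∧ cc a b p q = (cc a b p q' ^^ cc a b (pm p q') i) := by
  decide +kernel

theorem pm_zero : ∀ a b p, pm p 0 = p ∧ cc a b p 0 = false := by decide +kernel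

theorem tab1 : ∀ p, pm p 1 = ![1, 0, 4, 5, 2, 3, 7, 6, 10, 11, 8, 9, 18, 19, 20, 21, 22, 23, 12, 13, 14, 15, 16, 17] p ∧
    c1 p 1 = ![false, true, false, false, true, true, false, true, false, false, true, true, false, false, false, false, false, false, true, true, true, true, true, true] p ∧
    c2 p 1 = ![false, false, false, false, false, false, true, true, true, true, true, true, false, false, false, false, false, false, false, false, false, false, false, false] p := by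
  decide +kernel

theorem tab2 : ∀ p, pm p 2 = ![2, 3, 0, 1, 5, 4, 12, 13, 14, 15, 16, 17, 6, 7, 8, 9, 10, 11, 19, 18, 22, 23, 20, 21] p ∧
    c1 p 2 = ![false, false, true, true, false, true, false, false, false, false, false, false, true, true, true, true, true, true, false, true, false, false, true, true] p ∧
    c2 p 2 = ![false, false, false, false, false, false, false, false, false, false, false, false, false, false, false, false, false, false, true, true, true, true, true, true] p := by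
  decide +kernel

theorem tab6 : ∀ p, pm p 6 = ![6, 7, 8, 9, 10, 11, 0, 1, 2, 3, 4, 5, 14, 15, 12, 13, 17, 16, 20, 21, 18, 19, 23, 22] p ∧
    c1 p 6 = ![false, false, false, false, false, false, true, true, true, true, true, true, false, false, true, true, false, true, false, false, true, true, false, true] p ∧
    c2 p 6 = ![false, false, false, false, false, false, false, false, false, false, false, false, false, false, false, false, false, false, true, true, true, true, true, true] p := by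
  decide +kernel

def kw (s1 s2 s3 : G) (p : Fin 24) : G :=
  ![1, s1, s2, s1 * s2, s2 * s1, s1 * s2 * s1, s3, s1 * s3, s2 * s3, s1 * s2 * s3, s2 * s1 * s3, s1 * s2 * s1 * s3, s3 * s2, s1 * s3 * s2, s2 * s3 * s2, s1 * s2 * s3 * s2, s2 * s1 * s3 * s2, s1 * s2 * s1 * s3 * s2, s3 * s2 * s1, s1 * s3 * s2 * s1, s2 * s3 * s2 * s1, s1 * s2 * s3 * s2 * s1, s2 * s1 * s3 * s2 * s1, s1 * s2 * s1 * s3 * s2 * s1] p

theorem kw_gen {s1 s2 s3 A B : G} (h1 : s1 * s1 = A) (h2 : s2 * s2 = A) (h3 : s3 * s3 = A)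
    (h13 : s3 * s1 = B * (s1 * s3)) (h12 : s2 * s1 * s2 = s1 * s2 * s1)
    (h23 : s3 * s2 * s3 = s2 * s3 * s2) (AA : A * A = 1) (BB : B * B = 1) (AB : B * A = A * B)
    (B1 : s1 * B = B * s1) (B2 : s2 * B = B * s2) (B3 : s3 * B = B * s3) :
    ∀ i ∈ [1, 2, 6], ∀ p, kw s1 s2 s3 p * kw s1 s2 s3 i =
      cond (c1 p i) A 1 * (cond (c2 p i) B 1 * kw s1 s2 s3 (pm p i)) := by
  have r : ∀ {u v w : G}, u * v = w → ∀ x, u * (v * x) = w * x := fun h x => by rw [← mul_assoc, h]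
  have A1 : s1 * A = A * s1 := by rw [← h1, mul_assoc]
  have A2 : s2 * A = A * s2 := by rw [← h2, mul_assoc]
  have A3 : s3 * A = A * s3 := by rw [← h3, mul_assoc]
  have r12 : ∀ x, s2 * (s1 * (s2 * x)) = s1 * (s2 * (s1 * x)) := fun x => by
    simp only [← mul_assoc, h12]
  have r23 : ∀ x, s3 * (s2 * (s3 * x)) = s2 * (s3 * (s2 * x)) := fun x => by
    simp only [← mul_assoc, h23]
  have r4 : ∀ x, s3 * (s2 * (s1 * (s3 * x))) = B * (s2 * (s3 * (s2 * (s1 * x)))) := fun x => by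
    rw [← r23, r h13]
    simp only [mul_assoc, r B2, r B3, r BB, one_mul]
  have key : ∀ i ∈ [1, 2, 6], ∀ p y, kw s1 s2 s3 p * (kw s1 s2 s3 i * y) =
      cond (c1 p i) A 1 * (cond (c2 p i) B 1 * (kw s1 s2 s3 (pm p i) * y)) := by
    intro i hi p y
    simp only [List.mem_cons, List.not_mem_nil, or_false] at hi
    rcases hi with rfl | rfl | rfl
    on_goal 1 => rw [(tab1 p).1, (tab1 p).2.1, (tab1 p).2.2]
    on_goal 2 => rw [(tab2 p).1, (tab2 p).2.1, (tab2 p).2.2]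
    on_goal 3 => rw [(tab6 p).1, (tab6 p).2.1, (tab6 p).2.2]
    all_goals fin_cases p <;>
      simp only [kw, Fin.reduceFinMk, Matrix.cons_val, cond_true, cond_false, mul_assoc, one_mul,
        r h1, r h2, r h3, r h13, r12, r23, r4, r A1, r A2, r A3, r B1, r B2, r B3, r AA, r BB, r AB]
  intro i hi p
  simpa using key i hi p 1

/-- `g` acts on `E` as the permutation `p`. -/
def Act (z : G) (γ : Fin 4 → G) (g : G) (p : Fin 24) : Prop :=
  g * z = z * g ∧ ∀ e, g * ph z γ e = ph z γ (act p e) * g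

theorem Act.mul {g g' : G} {p p' : Fin 24} (h : Act z γ g p) (h' : Act z γ g' p') :
    Act z γ (g * g') (pm p p') :=
  ⟨by rw [mul_assoc, h'.1, ← mul_assoc, h.1, mul_assoc], fun e => by
    rw [mul_assoc, h'.2, ← mul_assoc, h.2, ((act_facts p).2 e).2.2.2, mul_assoc]⟩

theorem ph_zero : ph z γ 0 = 1 := by
  rw [ph_of_bits (show bits 0 = [false, false, false, false, false] by decide +kernel)]
  simp [ev]

namespace Fr

variable (h : Fr z γ)
include h

theorem ph_gen (e : Fin 32) : ph z γ (qm 16 e) = z * ph z γ e ∧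
    ∀ i, ph z γ (qm (gn i) e) = γ i * ph z γ e := by
  obtain ⟨b0, b1, b2, b3, b4⟩ := bits_qm e
  have r : ∀ {u v w : G}, u * v = w → ∀ x, u * (v * x) = w * x := fun h x => by rw [← mul_assoc, h]
  have key : ∀ x0 x1 x2 x3 x4 y,
      ev z γ x0 x1 x2 x3 (!x4) * y = z * (ev z γ x0 x1 x2 x3 x4 * y) ∧
      ev z γ (!x0) x1 x2 x3 x4 * y = γ 0 * (ev z γ x0 x1 x2 x3 x4 * y) ∧
      ev z γ x0 (!x1) x2 x3 (x4 ^^ x0) * y = γ 1 * (ev z γ x0 x1 x2 x3 x4 * y) ∧
      ev z γ x0 x1 (!x2) x3 (x4 ^^ x0 ^^ x1) * y = γ 2 * (ev z γ x0 x1 x2 x3 x4 * y) ∧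
      ev z γ x0 x1 x2 (!x3) (x4 ^^ x0 ^^ x1 ^^ x2) * y = γ 3 * (ev z γ x0 x1 x2 x3 x4 * y) := by
    intro x0 x1 x2 x3 x4 y
    cases x0 <;> cases x1 <;> cases x2 <;> cases x3 <;> cases x4 <;>
      simp only [ev, Bool.not_true, Bool.not_false, Bool.xor_true, Bool.xor_false, cond_true,
        cond_false, mul_assoc, one_mul, r (h.cen _), r (h.sq _), r h.zz, r (h.anti 1 0 (by decide)),
        r (h.anti 2 0 (by decide)), r (h.anti 3 0 (by decide)), r (h.anti 2 1 (by decide)),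
        r (h.anti 3 1 (by decide)), r (h.anti 3 2 (by decide)), and_self]
  obtain ⟨k4, k0, k1, k2, k3⟩ := key (tb e.1 0) (tb e.1 1) (tb e.1 2) (tb e.1 3) (tb e.1 4) 1
  simp only [mul_one] at k0 k1 k2 k3 k4
  refine ⟨(ph_of_bits b4).trans k4, fun i => ?_⟩
  fin_cases i
  exacts [(ph_of_bits b0).trans k0, (ph_of_bits b1).trans k1, (ph_of_bits b2).trans k2,
    (ph_of_bits b3).trans k3]

theorem ph_mul (e f : Fin 32) : ph z γ (qm e f) = ph z γ e * ph z γ f := by
  induction e using ind32 with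
  | h0 => rw [(qm_facts f).1, ph_zero, one_mul]
  | h1 e ih => rw [((qm_facts e).2.2.2 f).1, (h.ph_gen _).1, ih, (h.ph_gen _).1, mul_assoc]
  | h2 i e ih => rw [((qm_facts e).2.2.2 f).2, (h.ph_gen _).2, ih, (h.ph_gen _).2, mul_assoc]

theorem ph_gn (i : Fin 4) : ph z γ (gn i) = γ i := by
  rw [← (qm_facts 0).2.2.1 i, (h.ph_gen _).2, ph_zero, mul_one]

theorem ph_zc (c : Bool) : ph z γ (zc c) = cond c z 1 := by
  cases c
  · exact ph_zero
  · rw [show zc true = qm 16 0 by decide +kernel, (h.ph_gen _).1, ph_zero, mul_one]; rfl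

theorem ph_cen (e : Fin 32) : ph z γ e * z = z * ph z γ e := by
  rw [← (h.ph_gen e).1, ← (qm_facts e).2.1, h.ph_mul]
  exact congrArg _ (h.ph_zc true).symm

theorem act_of_gen {g : G} {p : Fin 24} (hg : g * z = z * g)
    (hi : ∀ i, g * γ i = ph z γ (act p (gn i)) * g) : Act z γ g p := by
  refine ⟨hg, fun e => ?_⟩
  induction e using ind32 with
  | h0 => rw [(act_facts p).1, ph_zero, one_mul, mul_one]
  | h1 e ih =>
    rw [((act_facts p).2 e).2.1, (h.ph_gen _).1, (h.ph_gen _).1, ← mul_assoc, hg, mul_assoc, ih,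
      mul_assoc]
  | h2 i e ih =>
    rw [((act_facts p).2 e).2.2.1, (h.ph_gen _).2, h.ph_mul, ← mul_assoc, hi, mul_assoc, ih,
      mul_assoc]

theorem act_z {g : G} {p : Fin 24} (hg : Act z γ g p) : Act z γ (z * g) p :=
  ⟨by rw [mul_assoc, hg.1], fun e => by
    rw [mul_assoc, hg.2, ← mul_assoc, ← h.ph_cen, mul_assoc]⟩

theorem act_one : Act z γ 1 0 :=
  ⟨by rw [one_mul, mul_one], fun e => by rw [((act_facts 0).2 e).1, one_mul, mul_one]⟩

theorem uniq {g g' : G} {p : Fin 24} (h1 : Act z γ g p) (h2 : Act z γ g' p) :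
    g' = g ∨ g' = z * g := by
  have k : ∀ x y, g * x = y * g → g' * x = y * g' → g⁻¹ * g' * x = x * (g⁻¹ * g') :=
    fun x y e e' => by
      rw [mul_assoc, e', ← mul_assoc, ← mul_assoc, eq_mul_inv_of_mul_eq e.symm]; group
  rcases h.gen (g⁻¹ * g') (k _ _ h1.1 h2.1)
    fun i => h.ph_gn i ▸ k _ _ (h1.2 (gn i)) (h2.2 (gn i)) with e | e
  · exact Or.inl (inv_mul_eq_one.1 e).symm
  · exact Or.inr ((inv_mul_eq_iff_eq_mul.1 e).trans h1.1)

theorem adjust {g : G} {σ : Equiv.Perm (Fin 4)} {p : Fin 24} (hg : g * z = z * g) (hp : rel σ p)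
    (hσ : ∀ i, g * γ i * g⁻¹ = γ (σ i) ∨ g * γ i * g⁻¹ = z * γ (σ i)) :
    ∃ e, Act z γ ((ph z γ e)⁻¹ * g) p := by
  have zz : ∀ x, z * (z * x) = x := fun x => by rw [← mul_assoc, h.zz, one_mul]
  have h1 : ∀ i, ∃ c : Bool, g * γ i * g⁻¹ = cond c z 1 * ph z γ (act p (gn i)) := fun i => by
    have e := hσ i
    rw [← h.ph_gn (σ i)] at e
    rcases hp i with e' | e' <;> rw [e'] at e
    · exact e.elim (fun e => ⟨false, by simpa using e⟩) fun e => ⟨true, e⟩
    · rw [(h.ph_gen _).1, zz] at e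
      exact e.elim (fun e => ⟨true, e⟩) fun e => ⟨false, by simpa using e⟩
  choose ε hε using h1
  obtain ⟨e, he⟩ := signs p ε
  refine ⟨e, h.act_of_gen ?_ fun i => ?_⟩
  · rw [mul_assoc, hg, ← mul_assoc, ← mul_assoc, inv_mul_eq_iff_eq_mul.2 (eq_mul_inv_of_mul_eq
      (h.ph_cen e).symm ▸ mul_assoc _ _ _)]
  · have k := congrArg (ph z γ) (he i)
    rw [h.ph_mul, h.ph_mul, h.ph_mul, h.ph_zc, ← mul_assoc, ← hε] at k
    rw [eq_inv_mul_of_mul_eq k]; group

theorem exists_act (p : Fin 24) : ∃ s, Act z γ s p := by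
  obtain ⟨σ, hσ⟩ := rel_right p
  obtain ⟨g, h1, h2⟩ := h.all σ
  exact (h.adjust h1 hσ h2).elim fun _ k => ⟨_, k⟩

theorem exists_kw : ∃ (a b : Bool) (k : Fin 24 → G), (∀ p, Act z γ (k p) p) ∧
    ∀ q p, k p * k q = cond (cc a b p q) z 1 * k (pm p q) := by
  have zz : ∀ x, z * (z * x) = x := fun x => by rw [← mul_assoc, h.zz, one_mul]
  have br : ∀ {s t : G} {p q : Fin 24}, Act z γ s p → Act z γ t q →
      pm (pm q p) q = pm (pm p q) p → ∃ t, Act z γ t q ∧ t * s * t = s * t * s :=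
    fun {s t p q} hs ht e => by
      rcases h.uniq ((hs.mul ht).mul hs) (e ▸ (ht.mul hs).mul ht) with k | k
      · exact ⟨t, ht, k⟩
      · refine ⟨z * t, h.act_z ht, ?_⟩
        calc _ = z * (t * s * z) * t := by group
          _ = t * s * t := by rw [(ht.mul hs).1, zz]
          _ = s * z * t * s := by rw [k, hs.1]; group
          _ = _ := by group
  have sqs : ∀ {s t : G}, t * s * t = s * t * s → (s * s = 1 ∨ s * s = z) → s * z = z * s →
      t * z = z * t → t * t = s * s := fun {s t} e h1 hs ht => by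
    have k : t * t = s * t * (s * s) * (s * t)⁻¹ := by
      rw [eq_mul_inv_iff_mul_eq]
      calc _ = t * (t * s * t) := by group
        _ = t * s * t * s := by nth_rewrite 1 [e]; group
        _ = _ := by rw [e]; group
    rw [k]
    rcases h1 with e | e <;> rw [e]
    · group
    · rw [mul_assoc s, ht, ← mul_assoc, hs]; group
  obtain ⟨s1, a1⟩ := h.exists_act 1
  obtain ⟨s2, a2, h12⟩ := (h.exists_act 2).elim fun _ k => br a1 k (by decide +kernel)
  obtain ⟨s3, a3, h23⟩ := (h.exists_act 6).elim fun _ k => br a2 k (by decide +kernel)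
  have q1 : s1 * s1 = 1 ∨ s1 * s1 = z := by
    simpa using h.uniq h.act_one ((show pm 1 1 = 0 by decide +kernel) ▸ a1.mul a1)
  have q2 := sqs h12 q1 a1.1 a2.1
  have q3 := (sqs h23 (q2 ▸ q1) a2.1 a3.1).trans q2
  obtain ⟨a, ha⟩ : ∃ a : Bool, s1 * s1 = cond a z 1 :=
    q1.elim (fun e => ⟨false, e⟩) fun e => ⟨true, e⟩
  obtain ⟨b, hb⟩ : ∃ b : Bool, s3 * s1 = cond b z 1 * (s1 * s3) :=
    (h.uniq (a1.mul a3) ((show pm 6 1 = pm 1 6 by decide +kernel) ▸ a3.mul a1)).elim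
      (fun e => ⟨false, by simpa using e⟩) fun e => ⟨true, e⟩
  have cz : ∀ {s : G} (c : Bool), s * z = z * s → s * cond c z 1 = cond c z 1 * s :=
    fun c e => by cases c <;> simp [e]
  have c2' : ∀ c c' : Bool, cond c z 1 * cond c' z 1 = cond (c ^^ c') z 1 := fun c c' => by
    cases c <;> cases c' <;> simp [h.zz]
  have g0 := kw_gen ha (q2.trans ha) (q3.trans ha) hb h12 h23 (by rw [c2']; simp)
    (by rw [c2']; simp) (by rw [c2', c2', Bool.xor_comm]) (cz b a1.1) (cz b a2.1) (cz b a3.1)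
  have g1 : ∀ i ∈ [1, 2, 6], ∀ p, kw s1 s2 s3 p * kw s1 s2 s3 i =
      cond (cc a b p i) z 1 * kw s1 s2 s3 (pm p i) := fun i hi p => by
    rw [g0 i hi p, ← mul_assoc, cc, ← c2']
    cases c1 p i <;> cases c2 p i <;> simp
  have g2 : ∀ i ∈ [1, 2, 6], Act z γ (kw s1 s2 s3 i) i := fun i hi => by
    simp only [List.mem_cons, List.not_mem_nil, or_false] at hi
    rcases hi with rfl | rfl | rfl
    exacts [a1, a2, a3]
  refine ⟨a, b, kw s1 s2 s3, fun q => ?_, fun q => ?_⟩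
  · induction q using WellFoundedLT.induction with
    | _ q ih =>
      rcases dec24 a b q with rfl | ⟨q', h1, i, hi, rfl, h2, -⟩
      · exact h.act_one
      · have := (ih q' h1).mul (g2 i hi)
        rwa [g1 i hi, h2, cond_false, one_mul] at this
  · induction q using WellFoundedLT.induction with
    | _ q ih =>
      intro p
      rcases dec24 a b q with rfl | ⟨q', h1, i, hi, e, h2, h3⟩
      · rw [(pm_zero a b p).1, (pm_zero a b p).2]
        exact (mul_one _).trans (one_mul _).symm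
      · have k := g1 i hi q'
        rw [h2, cond_false, one_mul, ← e] at k
        rw [← k, ← mul_assoc, ih q' h1, mul_assoc, g1 i hi, (h3 p).1, (h3 p).2, ← c2', mul_assoc]

theorem exists_md [Finite G] : ∃ (a b : Bool) (Φ : M a b → G), Md Φ z := by
  obtain ⟨a, b, k, h1, h2⟩ := h.exists_kw
  have cz : ∀ x : M a b, ph z γ x.e * k x.p * z = z * (ph z γ x.e * k x.p) := fun x => by
    rw [mul_assoc, (h1 _).1, ← mul_assoc, h.ph_cen, mul_assoc]
  have sj : ∀ g, g * z = z * g → ∃ x : M a b, ph z γ x.e * k x.p = g := fun g hg => by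
    obtain ⟨σ, hσ⟩ := h.perm g hg
    obtain ⟨p, hp⟩ := rel_left σ
    obtain ⟨e, he⟩ := h.adjust hg hp hσ
    rcases h.uniq (h1 p) he with e1 | e1
    · exact ⟨⟨e, p⟩, (inv_mul_eq_iff_eq_mul.1 e1).symm⟩
    · exact ⟨⟨qm 16 e, p⟩, by
        rw [inv_mul_eq_iff_eq_mul.1 e1, (h.ph_gen _).1, ← h.ph_cen, mul_assoc]⟩
  let ε : M a b ≃ Fin 32 × Fin 24 := ⟨fun x => (x.e, x.p), fun x => ⟨x.1, x.2⟩, fun _ => rfl,
    fun _ => rfl⟩
  have : Finite (M a b) := Finite.of_equiv _ ε.symm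
  let f : M a b → Subgroup.centralizer ({z} : Set G) := fun x =>
    ⟨_, Subgroup.mem_centralizer_singleton_iff.2 (cz x)⟩
  have hf : Function.Bijective f := (Nat.bijective_iff_surjective_and_card f).2
    ⟨fun g => (sj g (Subgroup.mem_centralizer_singleton_iff.1 g.2)).imp fun _ e => Subtype.ext e,
      by rw [h.card, Nat.card_congr ε]; simp⟩
  have k0 : k 0 = 1 := by
    have := h2 0 0
    rw [(pm_zero a b 0).1, (pm_zero a b 0).2] at this
    exact mul_right_cancel this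
  refine ⟨a, b, fun x => ph z γ x.e * k x.p, fun x y => ?_, fun x y e => hf.1 (Subtype.ext e),
    fun g => ⟨sj g, fun ⟨x, e⟩ => e ▸ cz x⟩, ?_⟩
  · show ph z γ (qm (qm x.e (act x.p y.e)) (zc (cc a b x.p y.p))) * k (pm x.p y.p) = _
    rw [h.ph_mul, h.ph_mul, h.ph_zc, mul_assoc, ← h2, mul_assoc, ← mul_assoc (ph z γ (act _ _)),
      ← (h1 _).2]
    group
  · show ph z γ (zc true) * k 0 = z
    rw [k0, h.ph_zc, mul_one]; rfl

end Fr

end Cfsg.Agent.ST
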