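import Cfsg.Agent.ST.Loc
import Cfsg.Agent.GOLD.Basic

/-! Fusion: `U` is strongly closed (see notes/SYLT.md). -/

set_option autoImplicit false

namespace Cfsg.Agent.ST

open Cfsg.Agent.H49 Cfsg.Agent.GOLD Subgroup

variable {G : Type*} [Group G]

theorem cj_comm {g x y : G} (h : x * (g⁻¹ * y * g) = g⁻¹ * y * g * x) :
    g * x * g⁻¹ * y = y * (g * x * g⁻¹) := by
  calc _ = g * (x * (g⁻¹ * y * g)) * g⁻¹ := by group
    _ = _ := by rw [h]; group

theorem cj_comm' {g x y : G} (h : g * x * g⁻¹ * y = y * (g * x * g⁻¹)) :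
    x * (g⁻¹ * y * g) = g⁻¹ * y * g * x := by
  calc _ = g⁻¹ * (g * x * g⁻¹ * y) * g := by group
    _ = _ := by rw [h]; group

namespace Loc

variable {z u v r f : G} {U W : Subgroup G} (h : Loc z u v r f U W)
include h

theorem zW : z ∈ W := (h.memW z).2 (Or.inr (Or.inl rfl))
theorem uW : u ∈ W := (h.memW u).2 (Or.inr (Or.inr (Or.inl rfl)))

theorem cenW {x w : G} (h1 : x * z = z * x) (h2 : x * u = u * x) (hw : w ∈ W) : x * w = w * x := by
  rcases (h.memW w).1 hw with rfl | rfl | rfl | rfl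
  exacts [by simp, h1, h2, Commute.mul_right h1 h2]

theorem cenU {x w : G} (hx : x ∈ U) (hw : w ∈ W) : x * w = w * x :=
  h.cenW (h.cen x hx).1 (h.cen x hx).2.1 hw

theorem pow4 {x : G} (hx : x ∈ U) : x * x * (x * x) = 1 := h.sqW _ (h.cen x hx).2.2

theorem cjz (g : G) : g * z * g⁻¹ * (g * z * g⁻¹) = 1 := by rw [conj_mul, h.zz]; simp

theorem cjz1 (g : G) : g * z * g⁻¹ ≠ 1 := fun e => h.ne (conj_eq_one_iff.1 e)

/-- conjugates of `z` in `C(z)` lie in `U` -/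
theorem DU {g : G} (hg : g * z * g⁻¹ * z = z * (g * z * g⁻¹)) : g * z * g⁻¹ ∈ U := by
  have h1 := cj_comm' hg
  obtain ⟨x, -, h3, h4⟩ := h.sqz _ h1.symm (by simpa using h.cjz g⁻¹)
  have := h.sqU _ (cj_comm h4) (by rw [conj_mul, h3, h.cjz])
  rwa [conj_mul, h3] at this

theorem DU' {g : G} (hg : g * z * g⁻¹ * z = z * (g * z * g⁻¹)) : g⁻¹ * z * g ∈ U := by
  simpa using h.DU (g := g⁻¹) (by simpa using (cj_comm' hg).symm)

theorem mul_sq {x w : G} (hx : x ∈ U) (hw : w ∈ W) (e : x * x = 1) : w * x * (w * x) = 1 := by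
  rw [mul_assoc, ← mul_assoc x, h.cenU hx hw, mul_assoc, e, mul_one, h.sqW w hw]

theorem exists_u {g : G} (hg : g * z * g⁻¹ * z = z * (g * z * g⁻¹)) (hn : g * z * g⁻¹ ≠ z) :
    ∃ g : G, g * z * g⁻¹ = u := by
  by_contra hu
  have hu : ¬ IsConj z u := fun e => hu (isConj_iff.1 e)
  have hzu : ¬ IsConj z (z * u) := fun e => hu (e.trans (isConj_iff.2 ⟨v, h.vu⟩).symm)
  have hW : ∀ w ∈ W, IsConj z w → w = z := fun w hw e => by
    rcases (h.memW w).1 hw with rfl | rfl | rfl | rfl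
    exacts [absurd (isConj_one_left.1 e) h.ne, rfl, absurd e hu, absurd e hzu]
  have d1 : g * z * g⁻¹ ∉ W := fun e => hn (hW _ e (isConj_iff.2 ⟨g, rfl⟩))
  have d2 : g⁻¹ * z * g ∉ W := fun e => hn (by
    conv_lhs => rw [← hW _ e (isConj_iff.2 ⟨g⁻¹, by simp⟩)]
    group)
  obtain ⟨k, -, hk⟩ := (h.fconj _ (h.DU hg) (h.cjz g)).resolve_left d1
  have hf : IsConj z f := (isConj_iff.2 ⟨g, rfl⟩).trans (isConj_iff.2 ⟨k, hk⟩).symm
  have all : ∀ x ∈ U, x * x = 1 → x ∉ W → IsConj z x := fun x hx e n => by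
    obtain ⟨k, -, hk⟩ := (h.fconj x hx e).resolve_left n
    exact hf.trans (isConj_iff.2 ⟨k, hk⟩)
  have z' := h.DU' hg
  have y1 : g * u * g⁻¹ * z = z * (g * u * g⁻¹) := cj_comm (h.cenU z' h.uW).symm
  obtain ⟨c, hc⟩ := isConj_iff.1 (all _ (mul_mem (h.le h.uW) z')
    (h.mul_sq z' h.uW (by simpa using h.cjz g⁻¹)) fun e => d2 ((mul_mem_cancel_left h.uW).1 e))
  have e1 : g * c * z * (g * c)⁻¹ = g * u * g⁻¹ * z := by
    calc _ = g * (c * z * c⁻¹) * g⁻¹ := by group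
      _ = _ := by rw [hc]; group
  have y2 : g * u * g⁻¹ ∈ U := (mul_mem_cancel_right (h.le h.zW)).1
    (e1 ▸ h.DU (g := g * c) (by rw [e1, ← mul_assoc z, ← y1]))
  have y3 : g * u * g⁻¹ ∈ W := by
    by_contra n
    exact hu ((all _ y2 (by rw [conj_mul, h.sqW u h.uW]; simp) n).trans
      (isConj_iff.2 ⟨g, rfl⟩).symm)
  refine hzu ((all _ (mul_mem y2 (h.DU hg)) (h.mul_sq (h.DU hg) y3 (h.cjz g))
    fun e => d1 ((mul_mem_cancel_left y3).1 e)).trans (isConj_iff.2 ⟨g, ?_⟩).symm)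
  rw [conj_mul, h.cenU (h.le h.zW) h.uW]

variable [Finite G]

theorem normW' {g : G} (h1 : g * z * g⁻¹ ∈ W) (h2 : g * u * g⁻¹ ∈ W) : g ∈ 𝒩(W) :=
  mem_normalizer_fintype fun w hw => by
    rcases (h.memW w).1 hw with rfl | rfl | rfl | rfl
    · simp
    · exact h1
    · exact h2
    · exact conj_mul (b := g) ▸ mul_mem h1 h2

theorem cen_norm {g : G} (hg : g * z = z * g) : g ∈ 𝒩(W) :=
  h.normW' (by rw [hg, mul_inv_cancel_right]; exact h.zW)
    ((h.normW g hg).elim (fun e => e.symm ▸ h.uW) fun e => e.symm ▸ mul_mem h.zW h.uW)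

theorem norm_U {g x : G} (hg : g ∈ 𝒩(W)) (hx : x ∈ U) : g * x * g⁻¹ ∈ U := by
  have k : ∀ w ∈ W, g⁻¹ * w * g ∈ W := fun w hw => by
    simpa using (mem_normalizer_iff.1 (inv_mem hg) w).1 hw
  have h1 : g⁻¹ * r * g * z = z * (g⁻¹ * r * g) :=
    (cj_comm' (h.cenW h.rz h.ru ((mem_normalizer_iff.1 hg z).1 h.zW)).symm).symm
  have h2 := h.pow4 (mul_mem hx (h.normU _ h1 x hx))
  refine h.char _ (cj_comm (h.cenU hx (k z h.zW))) (cj_comm (h.cenU hx (k u h.uW)))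
    (by simp only [conj_mul, h.pow4 hx]; simp) _ rfl ?_
  have e : g * x * g⁻¹ * (r * (g * x * g⁻¹) * (r * r)) =
      g * (x * (g⁻¹ * r * g * x * (g⁻¹ * r * g)⁻¹)) * g⁻¹ := by
    rw [eq_inv_of_mul_eq_one_left h.r3]; group
  rw [e]
  simp only [conj_mul, h2]
  simp

theorem exists_swap {g : G} (hg : g * z * g⁻¹ = u) : g ∈ 𝒩(W) := by
  have h0 : g * z * g⁻¹ * z = z * (g * z * g⁻¹) := hg ▸ h.cenU (h.le h.uW) h.zW
  have h1 : g⁻¹ * r * g * z = z * (g⁻¹ * r * g) := (cj_comm' (hg ▸ h.ru.symm)).symm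
  have h2 := (h.three _ h1 (by
    calc _ = g⁻¹ * (r * r * r) * g := by group
      _ = 1 := by rw [h.r3]; group)).resolve_left fun e => h.r1 (by
        calc r = g * (g⁻¹ * r * g) * g⁻¹ := by group
          _ = 1 := by rw [e]; group)
  have h3 := h2 _ (h.DU' h0) (by simpa using h.cjz g⁻¹) (by
    calc _ = g⁻¹ * (r * z) * g := by group
      _ = _ := by rw [h.rz]; group)
  refine h.normW' (hg ▸ h.uW) ?_
  rcases (h.memW _).1 h3 with e | e | e | e
  · exact absurd (by simpa using e) (h.cjz1 g⁻¹)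
  · refine absurd ?_ h.uz
    rw [← hg]
    conv_lhs => rw [← e]
    group
  · rw [← e]; simpa [mul_assoc] using h.zW
  · have : g * (z * u) * g⁻¹ ∈ W := by rw [← e]; simpa [mul_assoc] using h.zW
    rwa [← conj_mul, mul_mem_cancel_left (hg ▸ h.uW)] at this

theorem trans {g : G} (hg : g * z * g⁻¹ = u) {w : G} (hw : w ∈ W) (h1 : w ≠ 1) :
    ∃ n ∈ 𝒩(W), n * z * n⁻¹ = w := by
  rcases (h.memW w).1 hw with rfl | rfl | rfl | rfl
  · exact absurd rfl h1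
  · exact ⟨1, one_mem _, by simp⟩
  · exact ⟨g, h.exists_swap hg, hg⟩
  · exact ⟨v * g, mul_mem (h.cen_norm h.vz) (h.exists_swap hg), by rw [← h.vu, ← hg]; group⟩

theorem key {g0 : G} (hg : g0 * z * g0⁻¹ = u) {g : G} (hw : g⁻¹ * z * g ∈ W) : g ∈ 𝒩(W) := by
  obtain ⟨n, hn, e⟩ := h.trans hg hw (by simpa using h.cjz1 g⁻¹)
  refine (mul_mem_cancel_right hn).1 (h.cen_norm ?_)
  calc _ = g * (n * z * n⁻¹) * n := by group
    _ = _ := by rw [e]; group

theorem twoU : IsPGroup 2 U := fun x => ⟨2, Subtype.ext (by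
  have := h.pow4 x.2
  rw [show 2 ^ 2 = 2 + 2 from rfl, pow_add, pow_two]
  exact this)⟩

theorem exists_sylow : ∃ S, IsSylowOf 2 S ⊤ ∧ U ≤ S ∧ S ≤ 𝒞[z] ∧ 𝒩(S) ≤ 𝒞[z] := by
  have hU : U ≤ 𝒞[z] := fun x hx => mem_centralizer_singleton_iff.2 (h.cen x hx).1
  obtain ⟨S, hS, hUS⟩ := exists_sylowOf_ge (isPi_of_isPGroup Nat.prime_two h.twoU) hU
  obtain ⟨k, hk, hv⟩ := sylowOf_subJ hS (zpowers_le.2 (mem_centralizer_singleton_iff.2 h.vz))
    (isPi_of_isPGroup Nat.prime_two (IsPGroup.of_card_dvd_pow (n := 1) (by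
      rw [Nat.card_zpowers]; exact orderOf_dvd_of_pow_eq_one (by rw [pow_one, pow_two, h.vv]))))
  replace hv := hv (conj_mem_cj.2 (mem_zpowers v))
  replace hk := mem_centralizer_singleton_iff.1 hk
  have hk' : k⁻¹ * z = z * k⁻¹ := Commute.inv_left hk
  have zu : z * u ≠ u := fun e => h.ne (mul_eq_right.1 e)
  have nc : ¬ u * (k * v * k⁻¹) = k * v * k⁻¹ * u := fun e => by
    have e1 := cj_comm' e.symm
    have e2 := mul_inv_eq_iff_eq_mul.1 h.vu
    rcases h.normW _ hk' with e3 | e3 <;> rw [inv_inv] at e3 <;> rw [e3] at e1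
    · exact zu (mul_right_cancel (e2.symm.trans e1))
    · rw [← mul_assoc, h.vz, mul_assoc, mul_assoc, mul_right_inj] at e1
      exact zu (mul_right_cancel (e2.symm.trans e1))
  have hN : 𝒩(S) ≤ 𝒞[z] := fun g hg => by
    have c : ∀ s ∈ S, g * z * g⁻¹ * s = s * (g * z * g⁻¹) := fun s hs => cj_comm
      (mem_centralizer_singleton_iff.1 (hS.le (by
        simpa using (mem_normalizer_iff.1 (inv_mem hg) s).1 hs))).symm
    have vz : k * v * k⁻¹ * z = z * (k * v * k⁻¹) := mem_centralizer_singleton_iff.1 (hS.le hv)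
    rcases (h.memW _).1 (h.cent _ (c z (hUS (h.le h.zW))) fun y hy => c y (hUS hy)) with
      e | e | e | e
    · exact absurd e (h.cjz1 g)
    · exact mem_centralizer_singleton_iff.2 (mul_inv_eq_iff_eq_mul.1 e)
    · exact absurd (e ▸ c _ hv) nc
    · have := c _ hv
      rw [e, ← mul_assoc _ z, vz, mul_assoc z, mul_assoc z, mul_right_inj] at this
      exact absurd this nc
  exact ⟨S, sylowOf_of_norm_le hS le_top (inf_le_right.trans hN), hUS, hS.le, hN⟩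

/-- `U` is strongly closed in `C(z)`. -/
theorem closed {g0 : G} (hg0 : g0 * z * g0⁻¹ = u) {x g : G} (hx : x ∈ U)
    (hy : g * x * g⁻¹ * z = z * (g * x * g⁻¹)) : g * x * g⁻¹ ∈ U := by
  have c := cj_comm' hy
  have sq : g⁻¹ * z * g * (g⁻¹ * z * g) = 1 := by simpa using h.cjz g⁻¹
  by_cases h2 : x * x = 1
  swap
  · obtain ⟨n, hn, e⟩ := h.trans hg0 (h.cen x hx).2.2 h2
    have h3 := cj_comm' (g := n) (x := z) (y := g⁻¹ * z * g) (e ▸ Commute.mul_left c c)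
    have h4 := h.norm_U hn (h.DU (g := n⁻¹ * g⁻¹) (by simpa [mul_assoc] using h3.symm))
    exact h.norm_U (h.key hg0 (h.four x hx h2 _ (by simpa [mul_assoc] using h4) sq c)) hx
  have inD : IsConj z x → g * x * g⁻¹ ∈ U := fun e => by
    obtain ⟨k, rfl⟩ := isConj_iff.1 e
    have e1 : g * (k * z * k⁻¹) * g⁻¹ = g * k * z * (g * k)⁻¹ := by group
    rw [e1] at hy ⊢
    exact h.DU hy
  rcases h.fconj x hx h2 with hW | ⟨k, -, hk⟩
  · by_cases h1 : x = 1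
    · simp [h1]
    · obtain ⟨n, -, e⟩ := h.trans hg0 hW h1
      exact inD (isConj_iff.2 ⟨n, e⟩)
  by_cases hf : IsConj z f
  · exact inD (hf.trans (isConj_iff.2 ⟨k, hk⟩))
  have DW : ∀ d, IsConj z d → d ∈ 𝒞[z] → d ∈ W := fun d e hd => by
    obtain ⟨m, rfl⟩ := isConj_iff.1 e
    exact (h.fconj _ (h.DU (mem_centralizer_singleton_iff.1 hd)) (h.cjz m)).resolve_right
      fun ⟨k, _, hk⟩ => hf (e.trans (isConj_iff.2 ⟨k, hk⟩).symm)
  obtain ⟨S, hS, -, hSz, -⟩ := h.exists_sylow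
  obtain ⟨P, hP, hWP⟩ := exists_sylowOf_ge (X := W) (M := 𝒞[x])
    (isPi_of_isPGroup Nat.prime_two (h.twoU.to_le h.le))
    fun w hw => mem_centralizer_singleton_iff.2 (h.cenU hx hw).symm
  obtain ⟨a, ha, h3⟩ := sylowOf_subJ hP (zpowers_le.2 (mem_centralizer_singleton_iff.2 c.symm))
    (isPi_of_isPGroup Nat.prime_two (IsPGroup.of_card_dvd_pow (n := 1) (by
      rw [Nat.card_zpowers]; exact orderOf_dvd_of_pow_eq_one (by rw [pow_one, pow_two, sq]))))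
  replace h3 := h3 (conj_mem_cj.2 (mem_zpowers _))
  obtain ⟨m, -, hm⟩ := sylowOf_subJ hS le_top hP.pi
  have h4 : ∀ d ∈ P, IsConj z d → m * d * m⁻¹ ∈ W := fun d hd e =>
    DW _ (e.trans (isConj_iff.2 ⟨m, rfl⟩)) (hSz (hm (conj_mem_cj.2 hd)))
  have h5 := h.normW' (h4 z (hWP h.zW) (IsConj.refl z)) (h4 u (hWP h.uW) (isConj_iff.2 ⟨g0, hg0⟩))
  have h6 := (mem_normalizer_iff.1 h5 _).2 (h4 _ h3 (isConj_iff.2 ⟨a * g⁻¹, by group⟩))
  have h7 := h.norm_U (h.key hg0 (g := g * a⁻¹) (by simpa [mul_assoc] using h6)) hx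
  have h8 : a⁻¹ * x = x * a⁻¹ := mem_centralizer_singleton_iff.1 (inv_mem ha)
  rwa [mul_assoc g, h8, show g * (x * a⁻¹) * (g * a⁻¹)⁻¹ = g * x * g⁻¹ by group] at h7

end Loc

theorem Md.b_false [Finite G] {a b : Bool} {Φ : M a b → G} {z : G} (h : Md Φ z) {g : G}
    (hg : g * z * g⁻¹ = Φ mu) : b = false := by
  cases b
  · rfl
  have l := h.loc
  have n := l.exists_swap hg
  obtain ⟨x, hx, x2, y, hy, y2, n1, n2⟩ := sq_z' a
  obtain ⟨x', hx', ex⟩ := l.norm_U n (h.memU.2 hx)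
  obtain ⟨y', hy', ey⟩ := l.norm_U n (h.memU.2 hy)
  have k := sq_u a x' hx' (h.inj (by rw [h.mul, ex, conj_mul, ← h.mul, x2, h.hz, hg])) y' hy'
    (h.inj (by rw [h.mul, ey, conj_mul, ← h.mul, y2, h.hz, hg]))
  have e : Φ (x' * y' * (x' * y')) = g * Φ (x * y * (x * y)) * g⁻¹ := by
    simp only [h.mul, ex, ey, conj_mul]
  rcases k with k | k <;> rw [k] at e
  · exact absurd (h.inj ((conj_eq_one_iff.1 (e.symm.trans h.one)).trans h.one.symm)) n1
  · rw [← hg, mul_left_inj, mul_right_inj] at e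
    exact absurd (h.inj (e.symm.trans h.hz.symm)) n2

end Cfsg.Agent.ST
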