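import Cfsg.Agent.ST.Facts

/-! The facts about `C(z)` used in the fusion analysis. -/

set_option autoImplicit false

namespace Cfsg.Agent.ST

variable {G : Type*} [Group G] {a b : Bool}

/-- `U = O₂(C(W))`, `W = ⟨z, u⟩`. -/
structure Loc (z u v r f : G) (U W : Subgroup G) : Prop where
  ne : z ≠ 1
  zz : z * z = 1
  u1 : u ≠ 1
  uz : u ≠ z
  memW : ∀ g, g ∈ W ↔ g = 1 ∨ g = z ∨ g = u ∨ g = z * u
  le : W ≤ U
  sqW : ∀ w ∈ W, w * w = 1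
  cen : ∀ x ∈ U, x * z = z * x ∧ x * u = u * x ∧ x * x ∈ W
  sqz : ∀ y, y * z = z * y → y * y = 1 → ∃ x, x * z = z * x ∧ x * x = z ∧ x * y = y * x
  sqU : ∀ x, x * z = z * x → x * x * (x * x) = 1 → x * x ∈ U
  fconj : ∀ x ∈ U, x * x = 1 → x ∈ W ∨ ∃ h, h * z = z * h ∧ h * f * h⁻¹ = x
  three : ∀ x, x * z = z * x → x * x * x = 1 → x = 1 ∨ ∀ y ∈ U, y * y = 1 → x * y = y * x → y ∈ W
  r3 : r * r * r = 1
  r1 : r ≠ 1
  rz : r * z = z * r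
  ru : r * u = u * r
  char : ∀ x, x * z = z * x → x * u = u * x → x * x * (x * x) = 1 →
    ∀ y, y = x * (r * x * (r * r)) → y * y * (y * y) = 1 → x ∈ U
  four : ∀ x ∈ U, x * x ≠ 1 → ∀ y ∈ U, y * y = 1 → x * y = y * x → y ∈ W
  cent : ∀ x, x * z = z * x → (∀ y ∈ U, x * y = y * x) → x ∈ W
  normW : ∀ h, h * z = z * h → h * u * h⁻¹ = u ∨ h * u * h⁻¹ = z * u
  normU : ∀ h, h * z = z * h → ∀ x ∈ U, h * x * h⁻¹ ∈ U
  vz : v * z = z * v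
  vv : v * v = 1
  vu : v * u * v⁻¹ = z * u
  comm : ∀ g s, g * z = z * g → s * z = z * s → ∀ k : ℕ, (g * s * g⁻¹ * s⁻¹) ^ 2 ^ k = 1 →
    g * s * g⁻¹ * s⁻¹ ∈ U

theorem xor_can : ∀ c d : Bool, d = (c ^^ d) → c = false := by decide

theorem pa_M (x y : M a b) : pa (x * y).e = (pa x.e ^^ pa y.e) := pa_mul _ _ _ _

theorem sg_M (x y : M a b) : sg (x * y).p = (sg x.p ^^ sg y.p) := (sg_mul _ _).1

theorem InU.mul {x y : M a b} (hx : InU x) (hy : InU y) : InU (x * y) :=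
  ⟨by rw [pa_M, hx.1, hy.1]; rfl, (sg_mul _ _).2 hx.2 hy.2⟩

theorem InU.conj {h x y : M a b} (e : h * x = y * h) (hx : InU x) : InU y := by
  have h1 := pa_M h x
  rw [e, pa_M, hx.1, Bool.xor_false] at h1
  exact ⟨xor_can _ _ h1.symm, v4_conj h.p x.p y.p (congrArg M.p e) hx.2⟩

theorem W_facts : ∀ a b : Bool, (1 : M a b) * 1 = 1 ∧ (mz : M a b) ≠ 1 ∧ (mu : M a b) ≠ 1 ∧
    (mu : M a b) ≠ mz ∧ (mv : M a b) * mv = 1 ∧ (mv : M a b) * mu = mz * mu * mv ∧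
    ∀ x : M a b, InW x → InU x ∧ x * x = 1 ∧ ∀ y : M a b, InU y → InW y → InW (x * y) := by
  decide +kernel

namespace Md

variable {Φ : M a b → G} {z : G} (h : Md Φ z)
include h

theorem one : Φ 1 = 1 := by
  have := h.mul 1 1
  rw [(W_facts a b).1] at this
  exact mul_left_cancel (this.symm.trans (mul_one _).symm)

theorem eq {x y : M a b} : Φ x = Φ y ↔ x = y := h.inj.eq_iff

theorem cz (x : M a b) : Φ x * z = z * Φ x := (h.cen _).2 ⟨x, rfl⟩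

theorem inW (x : M a b) : InW x ↔ Φ x = 1 ∨ Φ x = z ∨ Φ x = Φ mu ∨ Φ x = z * Φ mu := by
  rw [← h.one, ← h.hz, ← h.mul, h.eq, h.eq, h.eq, h.eq]; rfl

theorem four {x : M a b} (hx : InU x) : Φ x * (Φ x * (Φ x * Φ x)) = 1 := by
  rw [← mul_assoc, ← h.mul, ← h.mul, ((W_facts a b).2.2.2.2.2.2 _ (U_facts a b x hx).2).2.1, h.one]

/-- the subgroup `U` -/
def U : Subgroup G where
  carrier := {g | ∃ x, InU x ∧ Φ x = g}
  one_mem' := ⟨1, ((W_facts a b).2.2.2.2.2.2 _ (Or.inl rfl)).1, h.one⟩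
  mul_mem' := by
    rintro _ _ ⟨x, hx, rfl⟩ ⟨y, hy, rfl⟩
    exact ⟨_, hx.mul hy, h.mul _ _⟩
  inv_mem' := by
    rintro _ ⟨x, hx, rfl⟩
    exact ⟨_, hx.mul (hx.mul hx), by
      rw [h.mul, h.mul]; exact eq_inv_of_mul_eq_one_right (h.four hx)⟩

/-- the subgroup `W` -/
def W : Subgroup G where
  carrier := {g | ∃ x, InW x ∧ Φ x = g}
  one_mem' := ⟨1, Or.inl rfl, h.one⟩
  mul_mem' := by
    rintro _ _ ⟨x, hx, rfl⟩ ⟨y, hy, rfl⟩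
    have k := (W_facts a b).2.2.2.2.2.2
    exact ⟨_, (k x hx).2.2 y (k y hy).1 hy, h.mul _ _⟩
  inv_mem' := by
    rintro _ ⟨x, hx, rfl⟩
    exact ⟨x, hx, eq_inv_of_mul_eq_one_right (by
      rw [← h.mul, ((W_facts a b).2.2.2.2.2.2 x hx).2.1, h.one])⟩

theorem memU {x : M a b} : Φ x ∈ h.U ↔ InU x :=
  ⟨fun ⟨_, hy, e⟩ => h.inj e ▸ hy, fun hx => ⟨x, hx, rfl⟩⟩

theorem memW {x : M a b} : Φ x ∈ h.W ↔ InW x :=
  ⟨fun ⟨_, hy, e⟩ => h.inj e ▸ hy, fun hx => ⟨x, hx, rfl⟩⟩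

theorem two (k : ℕ) : ∀ w : M a b, pa w.e = false → sg w.p = false → Φ w ^ 2 ^ k = 1 → InU w := by
  induction k with
  | zero =>
    intro w _ _ e
    rw [pow_zero, pow_one, ← h.one, h.eq] at e
    exact e ▸ h.memU.1 (h.one ▸ one_mem _)
  | succ k ih =>
    intro w h1 h2 e
    rw [pow_succ', pow_mul, pow_two, ← h.mul] at e
    exact ⟨h1, v4_sq _ h2 (ih _ (by rw [pa_M, h1]; rfl) (by rw [sg_M, h2]; rfl) e).2⟩

theorem loc : Loc z (Φ mu) (Φ mv) (Φ mr) (Φ mf) h.U h.W := by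
  obtain ⟨-, w1, w2, w3, w4, w5, w6⟩ := W_facts a b
  obtain ⟨r1, r2, r3⟩ := r_facts a b
  have o : ∀ {x : M a b}, Φ x = 1 ↔ x = 1 := by intro x; rw [← h.one, h.eq]
  have ez : ∀ {x : M a b}, Φ x = z ↔ x = mz := by intro x; rw [← h.hz, h.eq]
  refine ⟨fun e => w1 (o.1 (h.hz.trans e)), ?_, fun e => w2 (o.1 e), fun e => w3 (ez.1 e),
    fun g => ⟨?_, ?_⟩, ?_, ?_, ?_, fun y hy => ?_, fun x hx => ?_, ?_, fun x hx => ?_, ?_,
    fun e => r2 (o.1 e), h.cz _, ?_, fun x hx => ?_, ?_, fun x hx => ?_, fun x hx => ?_,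
    fun g hg => ?_, h.cz _, ?_, ?_, fun g s hg hs k e => ?_⟩
  · rw [← h.hz, ← h.mul, (w6 _ (Or.inr (Or.inl rfl))).2.1, h.one]
  · rintro ⟨x, hx, rfl⟩
    exact (h.inW x).1 hx
  · rintro (rfl | e | rfl | rfl)
    · exact one_mem _
    · exact ⟨mz, Or.inr (Or.inl rfl), h.hz.trans e.symm⟩
    · exact ⟨mu, Or.inr (Or.inr (Or.inl rfl)), rfl⟩
    · exact ⟨mz * mu, Or.inr (Or.inr (Or.inr rfl)), by rw [h.mul, h.hz]⟩
  · rintro _ ⟨x, hx, rfl⟩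
    exact ⟨x, (w6 x hx).1, rfl⟩
  · rintro _ ⟨x, hx, rfl⟩
    rw [← h.mul, (w6 x hx).2.1, h.one]
  · rintro _ ⟨x, hx, rfl⟩
    rw [← h.mul, ← h.mul, ← h.mul, h.eq, h.memW]
    exact ⟨h.cz x, U_facts a b x hx⟩
  · obtain ⟨y, rfl⟩ := (h.cen y).1 hy
    rw [← h.mul, o]
    intro e
    obtain ⟨x, h1, h2⟩ := sq_z a b y e
    exact ⟨Φ x, h.cz x, by rw [← h.mul, h1, h.hz], by rw [← h.mul, h2, h.mul]⟩
  · obtain ⟨x, rfl⟩ := (h.cen x).1 hx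
    rw [← h.mul, ← h.mul, o, h.memU]
    exact sq_U a b x
  · rintro _ ⟨x, hx, rfl⟩
    rw [← h.mul, o, h.memW]
    exact fun e => (f_conj a b x hx e).imp_right fun ⟨k, hk⟩ =>
      ⟨Φ k, h.cz k, by rw [← h.mul, hk, h.mul, mul_inv_cancel_right]⟩
  · obtain ⟨x, rfl⟩ := (h.cen x).1 hx
    rw [← h.mul, ← h.mul, o, o]
    refine fun e => (f_three a b x e).imp_right fun k => ?_
    rintro _ ⟨y, hy, rfl⟩
    rw [← h.mul, ← h.mul, ← h.mul, o, h.eq, h.memW]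
    exact k y hy
  · rw [← h.mul, ← h.mul, r1, h.one]
  · rw [← h.mul, r3, h.mul]
  · obtain ⟨x, rfl⟩ := (h.cen x).1 hx
    rintro e1 e2 _ rfl e3
    simp only [← h.mul, h.eq, o] at e1 e2 e3
    exact h.memU.2 (U_char a b x e1 e2 _ rfl e3)
  · rintro _ ⟨x, hx, rfl⟩ e1 _ ⟨y, hy, rfl⟩ e2 e3
    simp only [← h.mul, h.eq, o, Ne] at e1 e2 e3
    exact h.memW.2 (four_cent a b x hx e1 y hy e2 e3)
  · obtain ⟨x, rfl⟩ := (h.cen x).1 hx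
    exact fun k => h.memW.2 (cent_U a b x fun y hy => h.inj (by
      rw [h.mul, h.mul, k _ ⟨y, hy, rfl⟩]))
  · obtain ⟨x, rfl⟩ := (h.cen x).1 hx
    simp only [mul_inv_eq_iff_eq_mul, ← h.hz, ← h.mul, h.eq]
    exact norm_W a b x
  · obtain ⟨g, rfl⟩ := (h.cen g).1 hg
    rintro _ ⟨x, hx, rfl⟩
    obtain ⟨y, hy⟩ := (h.cen (Φ g * Φ x * (Φ g)⁻¹)).1
      ((Commute.mul_left (h.cz g) (h.cz x)).mul_left (Commute.inv_left (h.cz g)))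
    exact ⟨y, InU.conj (h := g) (h.inj (by rw [h.mul, h.mul, hy, inv_mul_cancel_right])) hx, hy⟩
  · rw [← h.mul, w4, h.one]
  · rw [← h.mul, w5, h.mul, mul_inv_cancel_right, h.mul, h.hz]
  · obtain ⟨w, hw⟩ := (h.cen (g * s * g⁻¹ * s⁻¹)).1 (((Commute.mul_left hg hs).mul_left
      (Commute.inv_left hg)).mul_left (Commute.inv_left hs))
    obtain ⟨g, rfl⟩ := (h.cen g).1 hg
    obtain ⟨s, rfl⟩ := (h.cen s).1 hs
    have e1 : w * (s * g) = g * s := h.inj (by rw [h.mul, h.mul, h.mul, hw]; group)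
    have e2 := pa_M w (s * g)
    have e3 := sg_M w (s * g)
    rw [e1, pa_M, pa_M s, Bool.xor_comm (pa g.e)] at e2
    rw [e1, sg_M, sg_M s, Bool.xor_comm (sg g.p)] at e3
    exact ⟨w, h.two k w (xor_can _ _ e2) (xor_can _ _ e3) (hw ▸ e), hw⟩

end Md

end Cfsg.Agent.ST
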